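import Cfsg.Agent.H2.Pol.Lat

/-!
# The dual polar graph: intersection numbers (helper711, for S4933)

`Φ : Pol F V`, `Q = #F`, the maximal totally singular subspaces have dimension `m` (`Φ.X (m + 1)` is empty) and every
totally singular `(m-1)`-space lies in `s + 1` of them; `cd x y = m - dim (x ∩ y)`; `br Q n = 1 + Q + ... + Q^(n-1)`.

* `card_one` : `#{z | cd x z = 1} = s [m]`;
* `card_down` : `cd x y = i` ⟹ `#{z | cd x z = 1, cd z y + 1 = i} = [i]`;
* `card_up` : `cd x y = i` ⟹ `#{z | cd x z = 1, cd z y = i + 1} = s Q^i [m-i]`;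
* `cd_step` : `cd x z = 1` ⟹ `cd z y ≤ cd x y + 1` and `cd x y ≤ cd z y + 1`.
-/

set_option autoImplicit false
set_option linter.unusedSectionVars false

namespace Cfsg.Agent.H711.DPol

open Module Cfsg.Agent.H2.Pol

/-- the `Q`-number -/
def br (Q n : ℕ) : ℕ := ∑ i ∈ Finset.range n, Q ^ i

theorem br_zero (Q : ℕ) : br Q 0 = 0 := rfl

theorem br_succ (Q n : ℕ) : br Q (n + 1) = br Q n + Q ^ n := Finset.sum_range_succ _ _

theorem br_add (Q n k : ℕ) : br Q (n + k) = br Q n + Q ^ n * br Q k := by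
  induction k with
  | zero => rw [br_zero, mul_zero]; rfl
  | succ k ih => rw [← add_assoc, br_succ, ih, br_succ, pow_add]; ring

theorem br_mono (Q : ℕ) {n k : ℕ} (h : n ≤ k) : br Q n ≤ br Q k := by
  obtain ⟨c, rfl⟩ := Nat.exists_eq_add_of_le h
  rw [br_add]
  exact Nat.le_add_right _ _

section lin

variable {F V : Type*} [Field F] [AddCommGroup V] [Module F V] [FiniteDimensional F V]

/-- the number of hyperplanes of a space -/
theorem card_hyp [Finite F] (Y : Type*) [AddCommGroup Y] [Module F Y] [FiniteDimensional F Y] :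
    Nat.card {L : Submodule F Y // finrank F L + 1 = finrank F Y} = br (Nat.card F) (finrank F Y) := by
  have h1 : Nat.card (Projectivization F (Dual F Y)) = br (Nat.card F) (finrank F Y) :=
    Projectivization.card_of_finrank F (Dual F Y) (Subspace.dual_finrank_eq (K := F) (V := Y))
  rw [← h1, Nat.card_congr (Projectivization.equivSubmodule F (Dual F Y))]
  refine Nat.card_congr
    { toFun := fun L => ⟨L.1.dualAnnihilator, ?_⟩
      invFun := fun M => ⟨M.1.dualCoannihilator, ?_⟩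
      left_inv := ?_
      right_inv := ?_ }
  · have h2 := Subspace.finrank_add_finrank_dualAnnihilator_eq L.1
    have h3 := L.2
    omega
  · have h2 := Subspace.finrank_add_finrank_dualCoannihilator_eq M.1
    have h3 := M.2
    omega
  · intro L
    exact Subtype.ext (Subspace.dualAnnihilator_dualCoannihilator_eq (W := L.1))
  · intro M
    exact Subtype.ext (Subspace.dualCoannihilator_dualAnnihilator_eq (W := M.1))

/-- the number of hyperplanes of `U` containing `A` -/
theorem card_hyp_between [Finite F] {A U : Submodule F V} (h : A ≤ U) :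
    Nat.card {T : Submodule F V // A ≤ T ∧ T ≤ U ∧ finrank F T + 1 = finrank F U} =
      br (Nat.card F) (finrank F U - finrank F A) := by
  obtain ⟨C, hC1, hC2⟩ := exists_rel_compl h
  have hC : finrank F C = finrank F U - finrank F A := by
    have h1 := finrank_sup_inf A C
    rw [hC1, hC2, finrank_bot] at h1
    omega
  have hAU : finrank F A ≤ finrank F U := finrank_le_of_le h
  rw [← hC, ← card_hyp (F := F) C]
  have hCU : C ≤ U := by rw [← hC1]; exact le_sup_right
  have key : ∀ W : Submodule F V, A ≤ W → W ≤ U → A ⊔ (W ⊓ C) = W := by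
    intro W h1 h2
    rw [inf_comm, ← sup_inf_assoc_of_le C h1, hC1]
    exact inf_eq_right.2 h2
  have key2 : ∀ L : Submodule F V, L ≤ C → (A ⊔ L) ⊓ C = L := by
    intro L h1
    rw [sup_comm, sup_inf_assoc_of_le A h1, hC2, sup_bot_eq]
  refine Nat.card_congr
    { toFun := fun W => ⟨(W.1 ⊓ C).comap C.subtype, ?_⟩
      invFun := fun L => ⟨A ⊔ L.1.map C.subtype, le_sup_left, ?_, ?_⟩
      left_inv := ?_
      right_inv := ?_ }
  · have h1 : finrank F ↥((W.1 ⊓ C).comap C.subtype) = finrank F ↥(W.1 ⊓ C) := by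
      rw [← Submodule.finrank_map_subtype_eq C ((W.1 ⊓ C).comap C.subtype), Submodule.map_comap_subtype,
        inf_eq_right.2 (inf_le_right : W.1 ⊓ C ≤ C)]
    rw [h1]
    have h2 := finrank_sup_inf A (W.1 ⊓ C)
    rw [key W.1 W.2.1 W.2.2.1] at h2
    have h3 : A ⊓ (W.1 ⊓ C) = ⊥ := by
      rw [eq_bot_iff, ← hC2]
      exact inf_le_inf_left _ inf_le_right
    rw [h3, finrank_bot] at h2
    have h4 := W.2.2.2
    omega
  · exact sup_le h ((Submodule.map_subtype_le _ _).trans hCU)
  · have h2 := finrank_sup_inf A (L.1.map C.subtype)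
    have h3 : A ⊓ L.1.map C.subtype = ⊥ := by
      rw [eq_bot_iff, ← hC2]
      exact inf_le_inf_left _ (Submodule.map_subtype_le _ _)
    rw [h3, finrank_bot, Submodule.finrank_map_subtype_eq] at h2
    have h4 := L.2
    omega
  · intro W
    apply Subtype.ext
    change A ⊔ ((W.1 ⊓ C).comap C.subtype).map C.subtype = W.1
    rw [Submodule.map_comap_subtype, inf_eq_right.2 (inf_le_right : W.1 ⊓ C ≤ C), key W.1 W.2.1 W.2.2.1]
  · intro L
    apply Subtype.ext
    change ((A ⊔ L.1.map C.subtype) ⊓ C).comap C.subtype = L.1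
    rw [key2 _ (Submodule.map_subtype_le _ _), Submodule.comap_map_eq_of_injective C.injective_subtype]

variable {Φ : Pol F V}

theorem le_perp_symm {U W : Submodule F V} (h : U ≤ Φ.perp W) : W ≤ Φ.perp U :=
  Φ.orth_iff_le_perp.1 (Pol.Orth.symm (Φ.orth_iff_le_perp.2 h))

theorem rank_le (U W : Submodule F V) : finrank F W + finrank F (Φ.perp W ⊓ U : Submodule F V) ≤
    finrank F U + finrank F (Φ.perp U ⊓ W : Submodule F V) := by
  obtain ⟨C, hC⟩ := Submodule.exists_isCompl ((Φ.perp W ⊓ U).comap U.subtype)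
  obtain ⟨b⟩ : Nonempty (Basis (Fin (finrank F C)) F C) := ⟨Module.finBasis F C⟩
  have hUC : finrank F ((Φ.perp W ⊓ U).comap U.subtype : Submodule F U) + finrank F C = finrank F U :=
    Submodule.finrank_add_eq_of_isCompl hC
  have hR : finrank F ((Φ.perp W ⊓ U).comap U.subtype : Submodule F U) =
      finrank F (Φ.perp W ⊓ U : Submodule F V) :=
    (Submodule.comapSubtypeEquivOfLe inf_le_right).finrank_eq
  let L : W →ₗ[F] (Fin (finrank F C) → F) := LinearMap.pi fun i => (Φ.L ((b i : U) : V)).comp W.subtype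
  have h1 := LinearMap.finrank_range_add_finrank_ker L
  have h2 : finrank F (LinearMap.range L) ≤ finrank F C := by
    have := Submodule.finrank_le (LinearMap.range L)
    rwa [Module.finrank_fin_fun] at this
  have h3 : finrank F (LinearMap.ker L) ≤ finrank F (Φ.perp U ⊓ W : Submodule F V) := by
    have h4 : (LinearMap.ker L).map W.subtype ≤ Φ.perp U ⊓ W := by
      rintro _ ⟨x, hx, rfl⟩
      refine ⟨?_, x.2⟩
      intro y hy
      have hx' : ∀ i, Φ.L ((b i : U) : V) x = 0 := fun i => congrFun (LinearMap.mem_ker.1 hx) i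
      have hK1 : C ≤ (LinearMap.ker (Φ.L (x : V))).comap U.subtype := by
        intro z hz
        have h5 : (⟨z, hz⟩ : C) ∈ Submodule.span F (Set.range b) := by rw [b.span_eq]; trivial
        have h6 : Submodule.span F (Set.range b) ≤ ((LinearMap.ker (Φ.L (x : V))).comap U.subtype).comap C.subtype := by
          rw [Submodule.span_le]
          rintro _ ⟨i, rfl⟩
          exact Φ.refl _ _ (hx' i)
        exact h6 h5
      have hK2 : (Φ.perp W ⊓ U).comap U.subtype ≤ (LinearMap.ker (Φ.L (x : V))).comap U.subtype := by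
        intro z hz
        exact hz.1 x x.2
      have hK3 : (⟨y, hy⟩ : U) ∈ (LinearMap.ker (Φ.L (x : V))).comap U.subtype := by
        have h7 : (⊤ : Submodule F U) ≤ (LinearMap.ker (Φ.L (x : V))).comap U.subtype := by
          rw [← hC.sup_eq_top]
          exact sup_le hK2 hK1
        exact h7 trivial
      exact Φ.refl _ _ hK3
    calc finrank F (LinearMap.ker L) = finrank F ((LinearMap.ker L).map W.subtype) :=
          (Submodule.finrank_map_subtype_eq W (LinearMap.ker L)).symm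
      _ ≤ _ := Submodule.finrank_mono h4
  omega

end lin

section dual

variable {F V : Type*} [Field F] [Finite F] [AddCommGroup V] [Module F V] [FiniteDimensional F V] {Φ : Pol F V} {m s : ℕ}

/-- the codimension of the intersection -/
noncomputable def cd (x y : Φ.X m) : ℕ := m - finrank F (x.1 ⊓ y.1 : Submodule F V)

theorem finrank_inf_le_m (x y : Φ.X m) : finrank F (x.1 ⊓ y.1 : Submodule F V) ≤ m := by
  have := Submodule.finrank_mono (inf_le_left : x.1 ⊓ y.1 ≤ x.1)
  rwa [x.2.2] at this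

theorem eqX_of_le {x y : Φ.X m} (h : x.1 ≤ y.1) : x = y :=
  Subtype.ext (eq_of_le_finrank h (by rw [x.2.2, y.2.2]))

theorem cd_le (x y : Φ.X m) : cd x y ≤ m := Nat.sub_le _ _

theorem cd_comm (x y : Φ.X m) : cd x y = cd y x := by unfold cd; rw [inf_comm]

theorem cd_eq_zero (x y : Φ.X m) : cd x y = 0 ↔ x = y := by
  unfold cd
  constructor
  · intro h
    have h1 := finrank_inf_le_m x y
    have h2 : x.1 ⊓ y.1 = x.1 := Submodule.eq_of_le_of_finrank_eq inf_le_left (by rw [x.2.2]; omega)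
    exact eqX_of_le (inf_eq_left.1 h2)
  · rintro rfl
    rw [inf_idem, x.2.2]
    omega

theorem cd_self (x : Φ.X m) : cd x x = 0 := (cd_eq_zero x x).2 rfl

theorem finrank_inf_eq (x y : Φ.X m) : finrank F (x.1 ⊓ y.1 : Submodule F V) = m - cd x y := by
  have := finrank_inf_le_m x y
  unfold cd
  omega

theorem exists_sub {U : Submodule F V} (n : ℕ) (h2 : n ≤ finrank F ↥U) :
    ∃ D : Submodule F V, D ≤ U ∧ finrank F ↥D = n := by
  induction n with
  | zero => exact ⟨⊥, bot_le, finrank_bot _ _⟩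
  | succ n ih =>
    obtain ⟨D, hD2, hD3⟩ := ih (by omega)
    have hne : D ≠ U := by
      rintro rfl
      omega
    obtain ⟨x, hxW, hxD⟩ := SetLike.exists_of_lt (lt_of_le_of_ne hD2 hne)
    refine ⟨D ⊔ Submodule.span F {x}, sup_le hD2 ?_, ?_⟩
    · rw [Submodule.span_singleton_le_iff_mem]
      exact hxW
    · have h1 := finrank_sup_inf D (Submodule.span F {x})
      have hx0 : x ≠ 0 := fun h => hxD (h ▸ D.zero_mem)
      rw [finrank_span_singleton hx0] at h1
      have h3 : D ⊓ Submodule.span F {x} = ⊥ := by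
        rw [eq_bot_iff]
        rintro y ⟨hy, hy'⟩
        obtain ⟨c, rfl⟩ := Submodule.mem_span_singleton.1 hy'
        by_cases hc : c = 0
        · rw [hc, zero_smul]
          exact Submodule.zero_mem _
        · exact absurd ((D.smul_mem_iff hc).1 hy) hxD
      rw [h3, finrank_bot] at h1
      omega

/-- `m` is the maximal dimension -/
theorem le_max (hmax : IsEmpty (Φ.X (m + 1))) {U : Submodule F V} (hU : Φ.TI U) : finrank F U ≤ m := by
  by_contra hcon
  push Not at hcon
  obtain ⟨T, h2, h3⟩ := exists_sub (m + 1) hcon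
  exact hmax.false ⟨T, hU.mono h2, h3⟩

/-- the part of `y` orthogonal to `T` -/
theorem finrank_perp_inf (hmax : IsEmpty (Φ.X (m + 1))) {T : Submodule F V} (hT : Φ.TI T) (hTm : finrank F T + 1 = m)
    (y : Φ.X m) : finrank F (Φ.perp T ⊓ y.1 : Submodule F V) = finrank F (T ⊓ y.1 : Submodule F V) + 1 := by
  have h1 := rank_le (Φ := Φ) T y.1
  rw [y.2.2] at h1
  have h2 : T ⊓ y.1 ≤ Φ.perp y.1 ⊓ T :=
    le_inf (inf_le_right.trans (Φ.orth_iff_le_perp.1 y.2.1.orth)) inf_le_left
  have h3 := finrank_le_of_le h2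
  have h4 : Φ.TI (T ⊔ (Φ.perp T ⊓ y.1)) :=
    hT.sup (y.2.1.mono inf_le_right) (Φ.orth_iff_le_perp.2 (le_perp_symm inf_le_left))
  have h5 := le_max hmax h4
  have h6 := finrank_sup_inf T (Φ.perp T ⊓ y.1)
  have h7 : finrank F (T ⊓ (Φ.perp T ⊓ y.1) : Submodule F V) ≤ finrank F (T ⊓ y.1 : Submodule F V) :=
    finrank_le_of_le (inf_le_inf_left _ inf_le_right)
  omega

/-- the gate: the maximal totally singular space over `T` nearest to `y` -/
theorem exists_gate (hmax : IsEmpty (Φ.X (m + 1))) {T : Submodule F V} (hT : Φ.TI T) (hTm : finrank F T + 1 = m)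
    (y : Φ.X m) : ∃ z : Φ.X m, T ≤ z.1 ∧
      finrank F (z.1 ⊓ y.1 : Submodule F V) = finrank F (T ⊓ y.1 : Submodule F V) + 1 ∧
      ∀ w : Φ.X m, T ≤ w.1 → w ≠ z →
        finrank F (w.1 ⊓ y.1 : Submodule F V) = finrank F (T ⊓ y.1 : Submodule F V) := by
  have hp := finrank_perp_inf hmax hT hTm y
  have h4 : Φ.TI (T ⊔ (Φ.perp T ⊓ y.1)) :=
    hT.sup (y.2.1.mono inf_le_right) (Φ.orth_iff_le_perp.2 (le_perp_symm inf_le_left))
  have h6 := finrank_sup_inf T (Φ.perp T ⊓ y.1)
  have h7 : T ⊓ (Φ.perp T ⊓ y.1) = T ⊓ y.1 := by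
    rw [← inf_assoc, inf_eq_left.2 (Φ.orth_iff_le_perp.1 hT.orth)]
  rw [h7] at h6
  have h8 : finrank F (T ⊔ (Φ.perp T ⊓ y.1) : Submodule F V) = m := by omega
  -- the part of `y` in a maximal space over `T`
  have key : ∀ w : Φ.X m, T ≤ w.1 → w.1 ⊓ y.1 ≤ Φ.perp T ⊓ y.1 := fun w hw =>
    inf_le_inf_right _ (Φ.orth_iff_le_perp.1 (w.2.1.orth.mono le_rfl hw))
  refine ⟨⟨T ⊔ (Φ.perp T ⊓ y.1), h4, h8⟩, le_sup_left, ?_, ?_⟩
  · rw [← hp]
    refine le_antisymm (finrank_le_of_le (key ⟨_, h4, h8⟩ le_sup_left)) (finrank_le_of_le ?_)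
    exact le_inf le_sup_right inf_le_right
  · intro w hw hne
    have h9 := finrank_le_of_le (key w hw)
    have h10 : finrank F (T ⊓ y.1 : Submodule F V) ≤ finrank F (w.1 ⊓ y.1 : Submodule F V) :=
      finrank_le_of_le (inf_le_inf_right _ hw)
    by_contra hcon
    have h11 : w.1 ⊓ y.1 = Φ.perp T ⊓ y.1 := eq_of_le_finrank (key w hw) (by omega)
    refine hne (Subtype.ext ?_)
    refine (eq_of_le_finrank (sup_le hw ?_) ?_).symm
    · rw [← h11]
      exact inf_le_left
    · rw [w.2.2, h8]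

/-- the hyperplanes of `x` -/
abbrev Hyp (x : Φ.X m) : Type _ := {T : Submodule F V // T ≤ x.1 ∧ finrank F T + 1 = m}

instance finiteSub : Finite (Submodule F V) := by
  have : Finite V := Module.finite_of_finite F
  exact Finite.of_injective (fun U : Submodule F V => (U : Set V)) SetLike.coe_injective

noncomputable instance fintypeHyp (x : Φ.X m) : Fintype (Hyp x) := Fintype.ofFinite _

theorem cd_eq_one_iff (x z : Φ.X m) : cd x z = 1 ↔ finrank F (x.1 ⊓ z.1 : Submodule F V) + 1 = m := by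
  have := finrank_inf_le_m x z
  unfold cd
  omega

/-- two different maximal spaces over a hyperplane of `x` -/
theorem inf_eq_hyp {x z : Φ.X m} {T : Submodule F V} (h1 : T ≤ x.1) (h2 : T ≤ z.1) (h3 : finrank F T + 1 = m)
    (hne : z ≠ x) : x.1 ⊓ z.1 = T := by
  have h4 : T ≤ x.1 ⊓ z.1 := le_inf h1 h2
  refine (eq_of_le_finrank h4 ?_).symm
  by_contra hcon
  have h5 := finrank_inf_le_m x z
  have h6 : x.1 ⊓ z.1 = x.1 := eq_of_le_finrank inf_le_left (by rw [x.2.2]; omega)
  exact hne (eqX_of_le (inf_eq_left.1 h6)).symm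

theorem card_nb (x : Φ.X m) (P : Φ.X m → Prop) : Nat.card {z : Φ.X m // cd x z = 1 ∧ P z} =
    ∑ T : Hyp x, Nat.card {z : Φ.X m // T.1 ≤ z.1 ∧ z ≠ x ∧ P z} := by
  rw [← Nat.card_sigma]
  refine Nat.card_congr
    { toFun := fun z => ⟨⟨x.1 ⊓ z.1.1, inf_le_left, (cd_eq_one_iff x z.1).1 z.2.1⟩, ⟨z.1, inf_le_right, ?_, z.2.2⟩⟩
      invFun := fun w => ⟨w.2.1, ?_, w.2.2.2.2⟩
      left_inv := ?_
      right_inv := ?_ }
  · rintro h
    have h1 := z.2.1
    rw [h, cd_self] at h1
    exact absurd h1 (by omega)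
  · rw [cd_eq_one_iff, inf_eq_hyp w.1.2.1 w.2.2.1 w.1.2.2 w.2.2.2.1]
    exact w.1.2.2
  · intro z
    rfl
  · rintro ⟨⟨T, hT⟩, ⟨z, hz⟩⟩
    have h := inf_eq_hyp hT.1 hz.1 hT.2 hz.2.1
    subst h
    rfl

theorem card_Hyp (x : Φ.X m) : Nat.card (Hyp x) = br (Nat.card F) m := by
  have h := card_hyp_between (F := F) (A := ⊥) (U := x.1) bot_le
  rw [finrank_bot, x.2.2, Nat.sub_zero] at h
  rw [← h]
  exact Nat.card_congr (Equiv.subtypeEquivRight fun T => ⟨fun h => ⟨bot_le, h⟩, fun h => h.2⟩)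

theorem card_Hyp_le (x y : Φ.X m) : Nat.card {T : Hyp x // x.1 ⊓ y.1 ≤ T.1} = br (Nat.card F) (cd x y) := by
  have h := card_hyp_between (F := F) (A := x.1 ⊓ y.1) (U := x.1) inf_le_left
  rw [x.2.2] at h
  rw [show br (Nat.card F) (cd x y) = br (Nat.card F) (m - finrank F (x.1 ⊓ y.1 : Submodule F V)) from rfl, ← h]
  exact Nat.card_congr
    { toFun := fun T => ⟨T.1.1, T.2, T.1.2.1, T.1.2.2⟩
      invFun := fun T => ⟨⟨T.1, T.2.2.1, T.2.2.2⟩, T.2.1⟩
      left_inv := fun _ => rfl
      right_inv := fun _ => rfl }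

/-- every totally singular `(m-1)`-space lies in `s + 1` maximal ones -/
def Thick (Φ : Pol F V) (m s : ℕ) : Prop :=
  ∀ T : Submodule F V, Φ.TI T → finrank F T + 1 = m → Nat.card {W : Φ.X m // T ≤ W.1} = s + 1

theorem Thick.of_X {n : ℕ} (h : ∀ T : Φ.X n, Nat.card {W : Φ.X (n + 1) // T.1 ≤ W.1} = s + 1) :
    Thick Φ (n + 1) s := fun T hT hn => h ⟨T, hT, Nat.succ_injective hn⟩

theorem Thick.of_reg {cc : ℕ → ℕ} (h : Φ.Reg cc) (hc : m = 0 ∨ cc (m - 1) = s + 1) : Thick Φ m s := by
  rcases m with _ | n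
  · intro T _ h1
    exact absurd h1 (by omega)
  · refine Thick.of_X fun T => ?_
    rw [h n T]
    exact hc.resolve_left (by omega)

/-- the neighbours over a hyperplane `T` of `x` -/
theorem card_over (hs : Thick Φ m s) (x : Φ.X m) (T : Hyp x) :
    Nat.card {z : Φ.X m // T.1 ≤ z.1 ∧ z ≠ x} = s := by
  classical
  have h1 := hs T.1 (x.2.1.mono T.2.1) T.2.2
  have h2 : Nat.card {z : Φ.X m // T.1 ≤ z.1 ∧ z ≠ x} + 1 = Nat.card {W : Φ.X m // T.1 ≤ W.1} := by
    have e : Option {z : Φ.X m // T.1 ≤ z.1 ∧ z ≠ x} ≃ {W : Φ.X m // T.1 ≤ W.1} :=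
      { toFun := fun o => o.elim ⟨x, T.2.1⟩ fun z => ⟨z.1, z.2.1⟩
        invFun := fun w => if h : w.1 = x then none else some ⟨w.1, w.2, h⟩
        left_inv := by
          rintro (_ | z)
          · simp
          · simp [z.2.2]
        right_inv := by
          intro w
          by_cases h : w.1 = x
          · simp only [h, dite_true, Option.elim_none]
            exact Subtype.ext h.symm
          · simp [h] }
    rw [← Nat.card_congr e, Finite.card_option]
  omega

/-- **the valency** -/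
theorem card_one (hs : Thick Φ m s) (x : Φ.X m) : Nat.card {z : Φ.X m // cd x z = 1} = s * br (Nat.card F) m := by
  have h := card_nb x fun _ => True
  rw [Nat.card_congr (Equiv.subtypeEquivRight fun z => (⟨fun h => h.1, fun h => ⟨h, trivial⟩⟩ :
    (cd x z = 1 ∧ True) ↔ cd x z = 1))] at h
  rw [h, Finset.sum_congr rfl fun T _ => ?_, Finset.sum_const, Finset.card_univ, ← Nat.card_eq_fintype_card, card_Hyp,
    smul_eq_mul, mul_comm]
  · rw [← card_over hs x T]
    exact Nat.card_congr (Equiv.subtypeEquivRight fun z => ⟨fun h => ⟨h.1, h.2.1⟩, fun h => ⟨h.1, h.2, trivial⟩⟩)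

section hyp

variable (hmax : IsEmpty (Φ.X (m + 1)))

include hmax in
/-- the case `x ∩ y ≤ T` -/
theorem over_le {x y : Φ.X m} {T : Submodule F V} (h1 : T ≤ x.1) (h2 : finrank F T + 1 = m) (h3 : x.1 ⊓ y.1 ≤ T) :
    ∃ z : Φ.X m, T ≤ z.1 ∧ z ≠ x ∧ cd z y + 1 = cd x y ∧ ∀ w : Φ.X m, T ≤ w.1 → w ≠ z → cd w y = cd x y := by
  obtain ⟨z, hz1, hz2, hz3⟩ := exists_gate hmax (x.2.1.mono h1) h2 y
  have h4 : T ⊓ y.1 = x.1 ⊓ y.1 := le_antisymm (inf_le_inf_right _ h1) (le_inf h3 inf_le_right)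
  rw [h4] at hz2 hz3
  refine ⟨z, hz1, ?_, ?_, ?_⟩
  · rintro rfl
    omega
  · have h5 := finrank_inf_le_m z y
    unfold cd
    omega
  · intro w hw hne
    unfold cd
    rw [hz3 w hw hne]

include hmax in
/-- the case `x ∩ y ≰ T` -/
theorem over_not_le {x y : Φ.X m} {T : Submodule F V} (h1 : T ≤ x.1) (h2 : finrank F T + 1 = m)
    (h3 : ¬ x.1 ⊓ y.1 ≤ T) : ∀ w : Φ.X m, T ≤ w.1 → w ≠ x → cd w y = cd x y + 1 := by
  obtain ⟨z, hz1, hz2, hz3⟩ := exists_gate hmax (x.2.1.mono h1) h2 y
  have h4 : x = z := by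
    by_contra hcon
    have h5 := hz3 x h1 hcon
    have h6 : T ⊓ y.1 = x.1 ⊓ y.1 := eq_of_le_finrank (inf_le_inf_right _ h1) (by rw [h5])
    exact h3 (by rw [← h6]; exact inf_le_left)
  subst h4
  intro w hw hne
  have h5 := finrank_inf_le_m x y
  unfold cd
  rw [hz3 w hw hne]
  omega

include hmax in
/-- neighbours at one step less -/
theorem card_down {x y : Φ.X m} {i : ℕ} (hi : cd x y = i) :
    Nat.card {z : Φ.X m // cd x z = 1 ∧ cd z y + 1 = i} = br (Nat.card F) i := by
  classical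
  subst hi
  rw [card_nb, ← card_Hyp_le x y, Nat.card_eq_fintype_card, Fintype.card_subtype, Finset.card_filter]
  refine Finset.sum_congr rfl fun T _ => ?_
  by_cases h : x.1 ⊓ y.1 ≤ T.1
  · rw [if_pos h]
    obtain ⟨z, hz1, hz2, hz3, hz4⟩ := over_le hmax T.2.1 T.2.2 h
    have : Unique {z : Φ.X m // T.1 ≤ z.1 ∧ z ≠ x ∧ cd z y + 1 = cd x y} :=
      { default := ⟨z, hz1, hz2, hz3⟩
        uniq := fun w => Subtype.ext (by
          by_contra hcon
          have h5 := hz4 w.1 w.2.1 hcon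
          have h6 := w.2.2.2
          omega) }
    exact Nat.card_unique
  · rw [if_neg h]
    have : IsEmpty {z : Φ.X m // T.1 ≤ z.1 ∧ z ≠ x ∧ cd z y + 1 = cd x y} := by
      refine ⟨fun w => ?_⟩
      have h5 := over_not_le hmax T.2.1 T.2.2 h w.1 w.2.1 w.2.2.1
      have h6 := w.2.2.2
      omega
    exact Nat.card_of_isEmpty

include hmax in
theorem card_up' (hs : Thick Φ m s) (x y : Φ.X m) :
    Nat.card {z : Φ.X m // cd x z = 1 ∧ cd z y = cd x y + 1} + s * br (Nat.card F) (cd x y) =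
      s * br (Nat.card F) m := by
  classical
  rw [card_nb, ← card_Hyp_le x y, ← card_Hyp x, Nat.card_eq_fintype_card (α := {T : Hyp x // x.1 ⊓ y.1 ≤ T.1}),
    Fintype.card_subtype, Finset.card_filter, Finset.mul_sum, ← Finset.sum_add_distrib]
  rw [Finset.sum_congr rfl fun T _ => ?_, Finset.sum_const, Finset.card_univ, ← Nat.card_eq_fintype_card, smul_eq_mul,
    mul_comm]
  by_cases h : x.1 ⊓ y.1 ≤ T.1
  · rw [if_pos h]
    obtain ⟨z, hz1, hz2, hz3, hz4⟩ := over_le hmax T.2.1 T.2.2 h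
    have : IsEmpty {z : Φ.X m // T.1 ≤ z.1 ∧ z ≠ x ∧ cd z y = cd x y + 1} := by
      refine ⟨fun w => ?_⟩
      have h6 := w.2.2.2
      by_cases h5 : w.1 = z
      · rw [h5] at h6
        omega
      · have := hz4 w.1 w.2.1 h5
        omega
    rw [Nat.card_of_isEmpty, mul_one, zero_add]
  · rw [if_neg h, mul_zero, add_zero, ← card_over hs x T]
    refine Nat.card_congr (Equiv.subtypeEquivRight fun z => ⟨fun h => ⟨h.1, h.2.1⟩, fun h' => ⟨h'.1, h'.2, ?_⟩⟩)
    exact over_not_le hmax T.2.1 T.2.2 h z h'.1 h'.2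

include hmax in
/-- neighbours at one step more -/
theorem card_up (hs : Thick Φ m s) {x y : Φ.X m} {i : ℕ} (hi : cd x y = i) :
    Nat.card {z : Φ.X m // cd x z = 1 ∧ cd z y = i + 1} = s * (Nat.card F) ^ i * br (Nat.card F) (m - i) := by
  subst hi
  have h := card_up' hmax hs x y
  have h1 : br (Nat.card F) m = br (Nat.card F) (cd x y) + Nat.card F ^ cd x y * br (Nat.card F) (m - cd x y) := by
    rw [← br_add]
    congr 1
    have := cd_le x y
    omega
  rw [h1, mul_add, add_comm] at h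
  rw [mul_assoc]
  exact Nat.add_left_cancel h

include hmax in
/-- the neighbours at the same distance -/
theorem card_same (hs : Thick Φ m s) {x y : Φ.X m} {i : ℕ} (hi : cd x y = i) :
    Nat.card {z : Φ.X m // cd x z = 1 ∧ cd z y = i} + br (Nat.card F) i = s * br (Nat.card F) i := by
  classical
  subst hi
  rw [card_nb, ← card_Hyp_le x y, Nat.card_eq_fintype_card (α := {T : Hyp x // x.1 ⊓ y.1 ≤ T.1}),
    Fintype.card_subtype, Finset.card_filter, Finset.mul_sum, ← Finset.sum_add_distrib]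
  refine Finset.sum_congr rfl fun T _ => ?_
  by_cases h : x.1 ⊓ y.1 ≤ T.1
  · rw [if_pos h, mul_one]
    obtain ⟨z, hz1, hz2, hz3, hz4⟩ := over_le hmax T.2.1 T.2.2 h
    rw [← card_over hs x T]
    have e : Option {w : Φ.X m // T.1 ≤ w.1 ∧ w ≠ x ∧ cd w y = cd x y} ≃ {w : Φ.X m // T.1 ≤ w.1 ∧ w ≠ x} :=
      { toFun := fun o => o.elim ⟨z, hz1, hz2⟩ fun w => ⟨w.1, w.2.1, w.2.2.1⟩
        invFun := fun w => if h : w.1 = z then none else some ⟨w.1, w.2.1, w.2.2, hz4 w.1 w.2.1 h⟩
        left_inv := by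
          rintro (_ | w)
          · simp
          · have h5 : w.1 ≠ z := by
              intro h5
              have h6 := w.2.2.2
              rw [h5] at h6
              omega
            simp [h5]
        right_inv := by
          intro w
          by_cases h : w.1 = z
          · simp only [h, dite_true, Option.elim_none]
            exact Subtype.ext h.symm
          · simp [h] }
    rw [← Nat.card_congr e, Finite.card_option]
  · rw [if_neg h, mul_zero, add_zero]
    have : IsEmpty {z : Φ.X m // T.1 ≤ z.1 ∧ z ≠ x ∧ cd z y = cd x y} := by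
      refine ⟨fun w => ?_⟩
      have h5 := over_not_le hmax T.2.1 T.2.2 h w.1 w.2.1 w.2.2.1
      have h6 := w.2.2.2
      omega
    exact Nat.card_of_isEmpty

include hmax in
theorem cd_step {x y z : Φ.X m} (h : cd x z = 1) : cd z y ≤ cd x y + 1 ∧ cd x y ≤ cd z y + 1 := by
  have h1 := (cd_eq_one_iff x z).1 h
  have hne : z ≠ x := by
    rintro rfl
    rw [cd_self] at h
    omega
  by_cases h2 : x.1 ⊓ y.1 ≤ x.1 ⊓ z.1
  · obtain ⟨w, hw1, hw2, hw3, hw4⟩ := over_le hmax inf_le_left h1 h2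
    by_cases h3 : z = w
    · rw [h3]
      omega
    · have := hw4 z inf_le_right h3
      omega
  · have := over_not_le hmax inf_le_left h1 h2 z inf_le_right hne
    omega

end hyp

/-- `cd` is invariant under every action through automorphisms of the lattice of subspaces -/
theorem cd_smul {G : Type*} [Group G] [MulAction G (Φ.X m)] {g : G} {f : Submodule F V ≃o Submodule F V}
    (hf : ∀ U, finrank F (f U) = finrank F U) (hg : ∀ U : Φ.X m, (g • U).1 = f U.1) (x y : Φ.X m) :
    cd (g • x) (g • y) = cd x y := by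
  unfold cd
  rw [hg, hg, ← OrderIso.map_inf, hf]

end dual

end Cfsg.Agent.H711.DPol
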