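import Cfsg.Agent.H711.DPol.InessCore
import Cfsg.Agent.H31.BR.PolInst

/-!
# The dual polar graph: the colours `≥ e` are not essential, linear primes (helper711, for S4933)

`e` odd, `K / F` an extension of degree `e` with an element of odd prime order `p`.

* `exists_iso` : `e ≤ cd x y`: an isometry `r` of order `p` of the polar space fixes `x` and `y`, and no isomorphism commuting
  with `r` maps `x` to `y`;
* `ines_G` : the form for a finite group `G` acting through isometries;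
* `ines_S` : the form for the simple group of a `PolInst`.
-/

set_option autoImplicit false
set_option linter.unusedSectionVars false

namespace Cfsg.Agent.H711.DPol

open Module Cfsg.Agent.H2.Pol

section space

variable {F V : Type*} [Field F] [Finite F] [AddCommGroup V] [Module F V] [FiniteDimensional F V] {Φ : Pol F V} {m : ℕ}

/-- the bilinear form of a polar space -/
def bil (Φ : Pol F V) (La : ∀ x y y' : V, Φ.L (y + y') x = Φ.L y x + Φ.L y' x)
    (Ls : ∀ (a : F) (x y : V), Φ.L (a • y) x = a * Φ.L y x) : V →ₗ[F] V →ₗ[F] F where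
  toFun := Φ.L
  map_add' y y' := LinearMap.ext fun x => La x y y'
  map_smul' a y := LinearMap.ext fun x => Ls a x y

variable (La : ∀ x y y' : V, Φ.L (y + y') x = Φ.L y x + Φ.L y' x)
  (Ls : ∀ (a : F) (x y : V), Φ.L (a • y) x = a * Φ.L y x)

theorem bil_apply (x y : V) : bil Φ La Ls y x = Φ.L y x := rfl

/-- an isometry acting on two totally singular subspaces, trivial on the orthogonal complement -/
def IsHyp (Φ : Pol F V) (r : V ≃ₗ[F] V) : Prop :=
  ∃ A B : Submodule F V, Φ.TI A ∧ Φ.TI B ∧ (∀ a ∈ A, r a ∈ A) ∧ (∀ b ∈ B, r b ∈ B) ∧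
    ∀ v, ∃ a ∈ A, ∃ b ∈ B, ∃ c, v = a + b + c ∧ r c = c ∧ (∀ a ∈ A, Φ.L a c = 0) ∧ ∀ b ∈ B, Φ.L b c = 0

theorem exists_frame (hmax : IsEmpty (Φ.X (m + 1))) {s : F} (hss : s * s = 1)
    (hs : ∀ x y, Φ.L x y = s * Φ.L y x) (x y : Φ.X m) {e : ℕ} (he : e ≤ cd x y) :
    ∃ (A : Submodule F V) (j : Dual F A →ₗ[F] V), finrank F A = e ∧ A ≤ x.1 ∧ (∀ φ, j φ ∈ y.1) ∧
      Frame (bil Φ La Ls) s A j := by
  obtain ⟨C, hC1, hC2⟩ := exists_rel_compl (inf_le_left : x.1 ⊓ y.1 ≤ x.1)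
  have hCd : finrank F C = cd x y := by
    have h1 := finrank_sup_inf (x.1 ⊓ y.1) C
    rw [hC1, hC2, finrank_bot, x.2.2] at h1
    unfold cd
    omega
  obtain ⟨A, hAC, hAe⟩ := exists_sub (U := C) e (by rw [hCd]; exact he)
  have hCx : C ≤ x.1 := by rw [← hC1]; exact le_sup_right
  have hAx : A ≤ x.1 := hAC.trans hCx
  have hAy : ∀ a ∈ A, a ∈ y.1 → a = 0 := by
    intro a ha hay
    have h1 : a ∈ (x.1 ⊓ y.1) ⊓ C := ⟨⟨hAx ha, hay⟩, hAC ha⟩
    rw [hC2] at h1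
    exact (Submodule.mem_bot F).1 h1
  -- nondegeneracy
  have hnd : ∀ a : A, (∀ v : y.1, Φ.L (v : V) (a : V) = 0) → a = 0 := by
    intro a ha
    apply Subtype.ext
    refine hAy a a.2 ?_
    have hTI : Φ.TI (y.1 ⊔ Submodule.span F {(a : V)}) := by
      have h1 : Φ.TI (Submodule.span F {(a : V)}) := x.2.1.mono
        ((Submodule.span_singleton_le_iff_mem _ _).2 (hAx a.2))
      have h2 : Φ.Orth (Submodule.span F {(a : V)}) y.1 := by
        intro u hu v hv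
        obtain ⟨t, rfl⟩ := Submodule.mem_span_singleton.1 hu
        rw [map_smul, ha ⟨v, hv⟩, smul_zero]
      refine ⟨fun u hu => ?_, (y.2.1.orth.sup_left h2).sup_right (h2.symm.sup_left h1.orth)⟩
      obtain ⟨u1, hu1, u2, hu2, rfl⟩ := Submodule.mem_sup.1 hu
      exact Φ.sing_add u1 u2 (y.2.1.1 u1 hu1) (h1.1 u2 hu2) (h2.symm u1 hu1 u2 hu2)
    have h3 := le_max hmax hTI
    have h4 : y.1 = y.1 ⊔ Submodule.span F {(a : V)} :=
      Submodule.eq_of_le_of_finrank_le le_sup_left (by rw [y.2.2]; exact h3)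
    rw [h4]
    exact Submodule.mem_sup_right (Submodule.mem_span_singleton_self _)
  -- the map to the dual
  let T : y.1 →ₗ[F] Dual F A := (LinearMap.lcomp F F A.subtype) ∘ₗ bil Φ La Ls ∘ₗ y.1.subtype
  have hT : ∀ (v : y.1) (a : A), T v a = Φ.L (v : V) (a : V) := fun _ _ => rfl
  have hTs : Function.Surjective T := by
    rw [← LinearMap.dualMap_injective_iff, injective_iff_map_eq_zero]
    intro Ψ hΨ
    obtain ⟨a, rfl⟩ := (evalEquiv F A).surjective Ψ
    have h1 : a = 0 := by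
      refine hnd a fun v => ?_
      have h2 := congrArg (fun f : Dual F y.1 => f v) hΨ
      exact h2
    rw [h1, map_zero]
  obtain ⟨g, hg⟩ := LinearMap.exists_rightInverse_of_surjective T (LinearMap.range_eq_top.2 hTs)
  refine ⟨A, y.1.subtype ∘ₗ g, hAe, hAx, fun φ => (g φ).2, ⟨hss, fun u v => hs u v, fun a b => ?_, fun φ ψ => ?_,
    fun φ a => ?_⟩⟩
  · exact x.2.1.2 _ (hAx b.2) _ (hAx a.2)
  · exact y.2.1.2 _ (g ψ).2 _ (g φ).2
  · have h1 := congrArg (fun f : Dual F A →ₗ[F] Dual F A => f φ a) hg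
    exact h1

include La Ls in
/-- **the isometry** -/
theorem exists_iso (hmax : IsEmpty (Φ.X (m + 1))) {s : F} (hss : s * s = 1)
    (hs : ∀ x y, Φ.L x y = s * Φ.L y x) {K : Type*} [Field K] [Algebra F K] [Finite K] {p : ℕ} (hp : p.Prime)
    (hp2 : p ≠ 2) (hpK : p ∣ Nat.card Kˣ) (ho : Odd (finrank F K)) (x y : Φ.X m) (he : finrank F K ≤ cd x y) :
    ∃ r : V ≃ₗ[F] V, r ^ p = 1 ∧ (∀ u v, Φ.L (r v) (r u) = Φ.L v u) ∧ IsHyp Φ r ∧
      x.1.map (r : V →ₗ[F] V) = x.1 ∧ y.1.map (r : V →ₗ[F] V) = y.1 ∧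
      ∀ k : V ≃ₗ[F] V, k * r = r * k → x.1.map (k : V →ₗ[F] V) ≠ y.1 := by
  have hpf : Fact p.Prime := ⟨hp⟩
  have hfK : FiniteDimensional F K := Module.Finite.of_finite
  obtain ⟨ζ, hζ⟩ := exists_prime_orderOf_dvd_card' (G := Kˣ) p hpK
  have hζ1 : (ζ : K) ^ p = 1 := by
    rw [← Units.val_pow_eq_pow_val, ← hζ, pow_orderOf_eq_one, Units.val_one]
  have hζ2 : (ζ : K) ≠ 1 := by
    intro h
    rw [Units.val_eq_one] at h
    rw [h, orderOf_one] at hζ
    exact hp.one_lt.ne hζ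
  obtain ⟨A, j, hAe, hAx, hjy, hF⟩ := exists_frame La Ls hmax hss hs x y he
  obtain ⟨ι⟩ : Nonempty (K ≃ₗ[F] A) := FiniteDimensional.nonempty_linearEquiv_of_finrank_eq hAe.symm
  let mu : K ≃ₗ[F] K := LinearEquiv.ofLinearMap (LinearMap.mulLeft F (ζ : K)) (LinearMap.mulLeft F ((ζ⁻¹ : Kˣ) : K))
    (LinearMap.ext fun u => by simp) (LinearMap.ext fun u => by simp)
  have hmu : ∀ u, mu u = ζ * u := fun _ => rfl
  let g : A ≃ₗ[F] A := ι.symm.trans (mu.trans ι)
  have hg : ∀ u, g (ι u) = ι (ζ * u) := fun u => by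
    show ι (mu (ι.symm (ι u))) = _
    rw [ι.symm_apply_apply, hmu]
  have hgp : g ^ p = 1 := by
    have h1 : ∀ (n : ℕ) (u : K), (g ^ n) (ι u) = ι (ζ ^ n * u) := by
      intro n
      induction n with
      | zero => intro u; rw [pow_zero, pow_zero, one_mul]; rfl
      | succ n ih => intro u; rw [pow_succ, LinearEquiv.mul_apply, hg, ih, pow_succ, mul_assoc]
    apply LinearEquiv.ext
    intro a
    obtain ⟨u, rfl⟩ := ι.surjective a
    rw [h1, hζ1, one_mul]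
    rfl
  have hPBx : ∀ v ∈ x.1, PB (bil Φ La Ls) s A v = 0 := by
    intro v hv
    ext a
    rw [PB_apply]
    have h1 : bil Φ La Ls (a : V) v = 0 := x.2.1.2 v hv a (hAx a.2)
    rw [h1, mul_zero]
    rfl
  have hPAy : ∀ v ∈ y.1, PA (bil Φ La Ls) A j v = 0 := by
    intro v hv
    refine ext_A fun φ => ?_
    rw [apply_PA, map_zero]
    exact y.2.1.2 v hv _ (hjy φ)
  refine ⟨hF.equiv g, ?_, fun u v => hF.pres g v u, ?_, ?_, ?_, ?_⟩
  · apply LinearEquiv.ext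
    intro v
    rw [hF.equiv_pow, hgp, hF.R_one]
    rfl
  · refine ⟨A, LinearMap.range j, x.2.1.mono hAx, y.2.1.mono (by rintro _ ⟨φ, rfl⟩; exact hjy φ), fun a ha => ?_, ?_,
      fun v => ⟨_, (PA (bil Φ La Ls) A j v).2, _, ⟨PB (bil Φ La Ls) s A v, rfl⟩, PC (bil Φ La Ls) s A j v,
        Frame.decomp v, ?_, fun a ha => hF.B_AC ⟨a, ha⟩ v, ?_⟩⟩
    · rw [hF.equiv_apply, RR_apply, hF.PA_A ⟨a, ha⟩, hF.PB_A ⟨a, ha⟩, hF.C_A ⟨a, ha⟩, map_zero, map_zero, add_zero,
        add_zero]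
      exact (g ⟨a, ha⟩).2
    · rintro _ ⟨φ, rfl⟩
      rw [hF.equiv_apply, RR_apply, hF.PA_B, hF.PB_B, hF.C_B, map_zero, Submodule.coe_zero, zero_add, add_zero]
      exact ⟨_, rfl⟩
    · rw [hF.equiv_apply, RR_apply, hF.PA_C, hF.PB_C, hF.C_C, map_zero, map_zero, map_zero, Submodule.coe_zero, zero_add,
        zero_add]
    · rintro _ ⟨φ, rfl⟩
      exact hF.B_BC φ v
  · refine Submodule.eq_of_le_of_finrank_eq ?_ (LinearEquiv.finrank_map_eq (hF.equiv g) x.1)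
    rintro _ ⟨v, hv, rfl⟩
    change RR (bil Φ La Ls) s A j g v ∈ x.1
    rw [RR_apply, hPBx v hv, map_zero, map_zero, add_zero, PC_apply, hPBx v hv, map_zero, sub_zero]
    exact x.1.add_mem (hAx (g _).2) (x.1.sub_mem hv (hAx (PA (bil Φ La Ls) A j v).2))
  · refine Submodule.eq_of_le_of_finrank_eq ?_ (LinearEquiv.finrank_map_eq (hF.equiv g) y.1)
    rintro _ ⟨v, hv, rfl⟩
    change RR (bil Φ La Ls) s A j g v ∈ y.1
    rw [RR_apply, hPAy v hv, map_zero, Submodule.coe_zero, zero_add, PC_apply, hPAy v hv, Submodule.coe_zero, sub_zero]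
    exact y.1.add_mem (hjy _) (y.1.sub_mem hv (hjy _))
  · intro k hk hxy
    refine hF.no_map hp hp2 hζ1 hζ2 ho ι g hg k (fun v => ?_) fun a => hPAy _ ?_
    · have h1 := congrArg (fun f : V ≃ₗ[F] V => f v) hk
      exact h1
    · rw [← hxy]
      exact ⟨a, hAx a.2, rfl⟩

end space

/-! ### Groups -/

open Cfsg.Agent.H674.BR Cfsg.Agent.H31.BR

/-- an element of order a power of `p` with the same image -/
theorem exists_p_elt {G L : Type*} [Group G] [Finite G] [Group L] {p : ℕ} (hp : p.Prime) (ρ : G →* L) (a : G)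
    (h : ρ a ^ p = 1) : ∃ a' : G, ρ a' = ρ a ∧ ∃ k : ℕ, a' ^ p ^ k = 1 := by
  obtain ⟨k, m, hm, hm2⟩ := Nat.exists_eq_pow_mul_and_not_dvd (n := orderOf a) (orderOf_pos a).ne' p hp.ne_one
  obtain ⟨u, -, hu⟩ := Nat.exists_mul_mod_eq_one_of_coprime ((Nat.Prime.coprime_iff_not_dvd hp).2 hm).symm hp.one_lt
  refine ⟨a ^ (m * u), ?_, k, ?_⟩
  · rw [map_pow, ← Nat.div_add_mod (m * u) p, hu, pow_succ, pow_mul, h, one_pow, one_mul]
  · rw [← pow_mul, show m * u * p ^ k = (p ^ k * m) * u by ring, ← hm2, pow_mul, pow_orderOf_eq_one, one_pow]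

/-- the cyclic group of a `p`-element -/
theorem isPGroup_zpowers {G : Type*} [Group G] {p : ℕ} (hp : p.Prime) {a : G} {k : ℕ} (h : a ^ p ^ k = 1) :
    IsPGroup p (Subgroup.zpowers a) := by
  have := Fact.mk hp
  obtain ⟨i, -, hi⟩ := (Nat.dvd_prime_pow hp).1 (orderOf_dvd_of_pow_eq_one h)
  exact IsPGroup.of_card (n := i) (by rw [Nat.card_zpowers, hi])

/-- `G` contains the isometries of the frames -/
def Full {F V G : Type*} [Field F] [AddCommGroup V] [Module F V] [Group G] (Φ : Pol F V) (ρ : G →* (V ≃ₗ[F] V)) : Prop :=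
  ∀ r : V ≃ₗ[F] V, (∀ u v, Φ.L (r v) (r u) = Φ.L v u) → IsHyp Φ r → ∃ a : G, ρ a = r

section groups

variable {F V : Type*} [Field F] [Finite F] [AddCommGroup V] [Module F V] [FiniteDimensional F V] {Φ : Pol F V} {m : ℕ}

/-- **the colours `≥ e` are not essential**, `G` acting through isometries -/
theorem ines_G (La : ∀ x y y' : V, Φ.L (y + y') x = Φ.L y x + Φ.L y' x)
    (Ls : ∀ (a : F) (x y : V), Φ.L (a • y) x = a * Φ.L y x) (hmax : IsEmpty (Φ.X (m + 1))) {s : F} (hss : s * s = 1)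
    (hs : ∀ x y, Φ.L x y = s * Φ.L y x) {K : Type*} [Field K] [Algebra F K] [Finite K] {p : ℕ} (hp : p.Prime)
    (hp2 : p ≠ 2) (hpK : p ∣ Nat.card Kˣ) (ho : Odd (finrank F K)) {G : Type*} [Group G] [Finite G]
    {ρ : G →* (V ≃ₗ[F] V)} (hfull : Full Φ ρ) [MulAction G (Φ.X m)]
    (hact : ∀ (g : G) (U : Φ.X m), (g • U).1 = U.1.map (ρ g : V →ₗ[F] V)) (x y : Φ.X m)
    (he : finrank F K ≤ cd x y) : ∃ R : Subgroup G, IsPGroup p R ∧ (∀ r ∈ R, r • x = x) ∧ (∀ r ∈ R, r • y = y) ∧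
      ∀ k ∈ Subgroup.centralizer (R : Set G), k • x ≠ y := by
  obtain ⟨r, hr, h1, h2, hx, hy, hk⟩ := exists_iso La Ls hmax hss hs hp hp2 hpK ho x y he
  obtain ⟨a, rfl⟩ := hfull r h1 h2
  obtain ⟨a', ha', k, hk'⟩ := exists_p_elt hp ρ a hr
  rw [← ha'] at hx hy hk
  refine ⟨Subgroup.zpowers a', isPGroup_zpowers hp hk', ?_, ?_, ?_⟩
  · have h3 : Subgroup.zpowers a' ≤ MulAction.stabilizer G x :=
      Subgroup.zpowers_le.2 (Subtype.ext ((hact a' x).trans hx))
    exact fun g hg => h3 hg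
  · have h3 : Subgroup.zpowers a' ≤ MulAction.stabilizer G y :=
      Subgroup.zpowers_le.2 (Subtype.ext ((hact a' y).trans hy))
    exact fun g hg => h3 hg
  · intro g hg hxy
    refine hk (ρ g) ?_ ?_
    · rw [← map_mul, ← map_mul, Subgroup.mem_centralizer_iff.1 hg a' (Subgroup.mem_zpowers a')]
    · rw [← hact, hxy]

end groups

section polinst

variable {p : ℕ} [hp : Fact p.Prime] {F V : Type*} {G H : Type*} {S : Type*} [Field F] [Fintype F] [AddCommGroup V]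
  [Module F V] [FiniteDimensional F V] [Group G] [Group H] [Group S] {Φ : Pol F V} {ρ : G →* (V ≃ₗ[F] V)} {ι : H →* G}
  {ρ' : H →* (V ≃ₗ[F] V)} {π : H →* S} {w ε K₀ : ℕ}

/-- **the colours `≥ e` are not essential**, the simple group of a `PolInst` -/
theorem ines_S [Finite G] (I : PolInst p Φ ρ ι ρ' π w ε K₀) {m : ℕ} (hmax : IsEmpty (Φ.X (m + 1))) {s : F}
    (hss : s * s = 1) (hs : ∀ x y, Φ.L x y = s * Φ.L y x) {K : Type*} [Field K] [Algebra F K] [Finite K]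
    (hp2 : p ≠ 2) (hpK : p ∣ Nat.card Kˣ) (ho : Odd (finrank F K)) (hfull : Full Φ ρ)
    (hpow : ∃ n : ℕ, ¬ p ∣ n ∧ ∀ g : G, g ^ n ∈ ι.range) (x y : Φ.X m) (he : finrank F K ≤ cd x y) :
    letI := I.model.mulAction m
    ∃ R : Subgroup S, IsPGroup p R ∧ (∀ r ∈ R, r • x = x) ∧ (∀ r ∈ R, r • y = y) ∧
      ∀ k ∈ Subgroup.centralizer (R : Set S), k • x ≠ y := by
  let _ := I.model.mulAction m
  have hfH : Finite H := Finite.of_injective ι I.inj
  obtain ⟨r, hr, h1, h2, hx, hy, hk⟩ := exists_iso I.La I.Ls hmax hss hs hp.out hp2 hpK ho x y he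
  obtain ⟨a, rfl⟩ := hfull r h1 h2
  obtain ⟨a', ha', k, hk'⟩ := exists_p_elt hp.out ρ a hr
  rw [← ha'] at hx hy hk
  obtain ⟨n, hn, hpow⟩ := hpow
  -- `a'` is in the range of `ι`
  have hrange : a' ∈ ι.range := by
    have h3 : Nat.Coprime (orderOf a') n := by
      obtain ⟨i, -, hi⟩ := (Nat.dvd_prime_pow hp.out).1 (orderOf_dvd_of_pow_eq_one hk')
      rw [hi]
      exact Nat.Coprime.pow_left i ((Nat.Prime.coprime_iff_not_dvd hp.out).2 hn)
    obtain ⟨i, hi⟩ := exists_pow_eq_self_of_coprime h3.symm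
    rw [← hi]
    exact ι.range.pow_mem (hpow a') i
  obtain ⟨h, rfl⟩ := hrange
  rw [I.comp] at hx hy hk
  have hh : h ^ p ^ k = 1 := I.inj (by rw [map_pow, hk', map_one])
  have hfix : ∀ U : Φ.X m, U.1.map (ρ' h : V →ₗ[F] V) = U.1 → π h • U = U := fun U hU =>
    (I.model.smul_eq m h U).trans (Subtype.ext hU)
  refine ⟨Subgroup.zpowers (π h), isPGroup_zpowers hp.out (k := k) (by rw [← map_pow, hh, map_one]), ?_, ?_, ?_⟩
  · have h3 : Subgroup.zpowers (π h) ≤ MulAction.stabilizer S x := Subgroup.zpowers_le.2 (hfix x hx)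
    exact fun g hg => h3 hg
  · have h3 : Subgroup.zpowers (π h) ≤ MulAction.stabilizer S y := Subgroup.zpowers_le.2 (hfix y hy)
    exact fun g hg => h3 hg
  · intro g hg hxy
    obtain ⟨g, rfl⟩ := I.model.surj g
    have h3 := Subgroup.mem_centralizer_iff.1 hg (π h) (Subgroup.mem_zpowers _)
    -- `g` commutes with `h`
    have h4 : h⁻¹ * (g * h * g⁻¹) ∈ π.ker := by
      rw [MonoidHom.mem_ker, map_mul, map_inv, map_mul, map_mul, map_inv, ← h3]
      group
    have hz := I.ker_le h4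
    have h5 : g * h * g⁻¹ = h * (h⁻¹ * (g * h * g⁻¹)) := by group
    generalize hzz : h⁻¹ * (g * h * g⁻¹) = z at h4 hz h5
    have h6 : z ^ p ^ k = 1 := by
      have h7 : (g * h * g⁻¹) ^ p ^ k = 1 := by rw [conj_pow, hh, mul_one, mul_inv_cancel]
      rw [h5, (show Commute h z from Subgroup.mem_center_iff.1 hz h).mul_pow, hh, one_mul] at h7
      exact h7
    have h8 : z ^ Nat.card π.ker = 1 := by
      have h9 : (⟨z, h4⟩ : π.ker) ^ Nat.card π.ker = 1 := pow_card_eq_one'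
      exact congrArg Subtype.val h9
    have h10 := pow_gcd_eq_one.2 ⟨h6, h8⟩
    have h11 : Nat.gcd (p ^ k) (Nat.card π.ker) = 1 :=
      Nat.Coprime.pow_left k ((Nat.Prime.coprime_iff_not_dvd hp.out).2 I.ker_card)
    rw [h11, pow_one] at h10
    rw [h10, mul_one, mul_inv_eq_iff_eq_mul] at h5
    refine hk (ρ' g) ?_ ?_
    · rw [← map_mul, ← map_mul, h5]
    · have h12 := congrArg Subtype.val (I.model.smul_eq m g x)
      have h13 : (π g • x).1 = y.1 := congrArg Subtype.val hxy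
      exact h12.symm.trans h13

end polinst

end Cfsg.Agent.H711.DPol
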