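import Cfsg.Agent.H711.DPol.Geo

/-!
# The dual polar graph: colours which are not essential, linear primes (helper711, for S4933)

`core` : `x`, `y` maximal totally singular, `K / F` an extension of odd degree `e ≤ cd x y`, `ζ ∈ K` of odd prime order `p`:
an isometry `r` of order `p` fixes `x` and `y`, and no linear map commuting with `r` maps `x` to `y`.
-/

set_option autoImplicit false
set_option linter.unusedSectionVars false

namespace Cfsg.Agent.H711.DPol

open Module Cfsg.Agent.H2.Pol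

/-! ### The field part -/

section field

variable {F K : Type*} [Field F] [Field K] [Algebra F K] [Finite K]

/-- `ζ⁻¹` is not a conjugate of `ζ` in an extension of odd degree -/
theorem aeval_inv_ne {p : ℕ} (hp : p.Prime) (hp2 : p ≠ 2) {ζ : K} (h1 : ζ ^ p = 1) (h2 : ζ ≠ 1)
    (ho : Odd (finrank F K)) : Polynomial.aeval ζ⁻¹ (minpoly F ζ) ≠ 0 := by
  intro h
  have : Finite F := Finite.of_injective (algebraMap F K) (algebraMap F K).injective
  have hfd : FiniteDimensional F K := Module.Finite.of_finite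
  obtain ⟨σ, hσ⟩ := minpoly.exists_algEquiv_of_root' (K := F) (L := K) (x := ζ⁻¹) (y := ζ)
    (Algebra.IsAlgebraic.isAlgebraic ζ) h
  have h3 : ∀ n : ℕ, (σ ^ (2 * n + 1)) ζ = ζ⁻¹ := by
    intro n
    induction n with
    | zero => simpa using hσ
    | succ n ih =>
      have e : σ ^ (2 * (n + 1) + 1) = σ ^ 2 * σ ^ (2 * n + 1) := by rw [← pow_add]; congr 1; ring
      rw [e, AlgEquiv.mul_apply, ih, pow_two, AlgEquiv.mul_apply, map_inv₀, hσ, inv_inv, hσ]
  obtain ⟨n, hn⟩ := ho
  have h4 : σ ^ (2 * n + 1) = 1 := by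
    rw [← hn, ← IsGalois.card_aut_eq_finrank F K]
    exact pow_card_eq_one'
  have h5 := h3 n
  rw [h4, AlgEquiv.one_apply] at h5
  have hz : ζ ≠ 0 := by
    rintro rfl
    rw [zero_pow hp.ne_zero] at h1
    exact zero_ne_one h1
  have h6 : ζ ^ 2 = 1 := by
    rw [pow_two]
    nth_rewrite 2 [h5]
    exact mul_inv_cancel₀ hz
  have h7 := pow_gcd_eq_one.2 ⟨h1, h6⟩
  have h8 : Nat.gcd p 2 = 1 := (Nat.coprime_primes hp Nat.prime_two).2 hp2
  rw [h8, pow_one] at h7
  exact h2 h7

/-- a bilinear form with `β (ζ u) v = β u (ζ⁻¹ v)` is degenerate -/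
theorem no_form {p : ℕ} (hp : p.Prime) (hp2 : p ≠ 2) {ζ : K} (h1 : ζ ^ p = 1) (h2 : ζ ≠ 1)
    (ho : Odd (finrank F K)) (θ : K →ₗ[F] Dual F K) (hθ : ∀ u v, θ (ζ * u) v = θ u (ζ⁻¹ * v)) :
    ¬ Function.Surjective θ := by
  intro hs
  have key : ∀ (P : Polynomial F) (u v : K), θ (Polynomial.aeval ζ P * u) v = θ u (Polynomial.aeval ζ⁻¹ P * v) := by
    intro P
    induction P using Polynomial.induction_on with
    | C a =>
      intro u v
      rw [Polynomial.aeval_C, Polynomial.aeval_C, ← Algebra.smul_def, ← Algebra.smul_def, map_smul, map_smul]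
      rfl
    | add P Q hP hQ =>
      intro u v
      rw [map_add, map_add, add_mul, add_mul, map_add, map_add, LinearMap.add_apply, hP, hQ]
    | monomial n a ih =>
      intro u v
      have e : Polynomial.C a * Polynomial.X ^ (n + 1) = (Polynomial.C a * Polynomial.X ^ n) * Polynomial.X := by
        rw [pow_succ, mul_assoc]
      rw [e, map_mul (Polynomial.aeval ζ), map_mul (Polynomial.aeval ζ⁻¹), Polynomial.aeval_X, Polynomial.aeval_X,
        mul_assoc, ih, hθ]
      congr 1
      ring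
  apply aeval_inv_ne hp hp2 h1 h2 ho
  by_contra hne
  -- a functional not vanishing at `P (ζ⁻¹)`
  have h3 : ∀ φ : Dual F K, φ (Polynomial.aeval ζ⁻¹ (minpoly F ζ)) = 0 := by
    intro φ
    obtain ⟨u, rfl⟩ := hs φ
    have h4 := key (minpoly F ζ) u 1
    rw [minpoly.aeval, zero_mul, map_zero, mul_one] at h4
    exact h4.symm
  exact hne ((forall_dual_apply_eq_zero_iff F _).1 h3)

end field

/-! ### The isometries -/

section geom

variable {F V : Type*} [Field F] [AddCommGroup V] [Module F V] [FiniteDimensional F V]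

/-- `B` bilinear, `A` totally isotropic, `j φ` represents `φ` on `A`, the range of `j` is totally isotropic -/
structure Frame (B : V →ₗ[F] V →ₗ[F] F) (s : F) (A : Submodule F V) (j : Dual F A →ₗ[F] V) : Prop where
  ss : s * s = 1
  sym : ∀ x y, B x y = s * B y x
  tiA : ∀ a b : A, B a b = 0
  tiB : ∀ φ ψ : Dual F A, B (j φ) (j ψ) = 0
  pair : ∀ (φ : Dual F A) (a : A), B (j φ) a = φ a

variable {B : V →ₗ[F] V →ₗ[F] F} {s : F} {A : Submodule F V} {j : Dual F A →ₗ[F] V}

/-- the component in `A` -/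
noncomputable def PA (B : V →ₗ[F] V →ₗ[F] F) (A : Submodule F V) (j : Dual F A →ₗ[F] V) : V →ₗ[F] A :=
  (evalEquiv F A).symm.toLinearMap ∘ₗ (B ∘ₗ j).flip

/-- the component in `j (A*)` -/
noncomputable def PB (B : V →ₗ[F] V →ₗ[F] F) (s : F) (A : Submodule F V) : V →ₗ[F] Dual F A :=
  s • (B ∘ₗ A.subtype).flip

theorem apply_PA (φ : Dual F A) (v : V) : φ (PA B A j v) = B (j φ) v := by
  unfold PA
  rw [LinearMap.comp_apply]
  exact apply_evalEquiv_symm_apply (R := F) (M := A) φ _

theorem PB_apply (v : V) (a : A) : PB B s A v a = s * B a v := rfl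

theorem ext_A {a b : A} (h : ∀ φ : Dual F A, φ a = φ b) : a = b := by
  rw [← sub_eq_zero]
  refine (forall_dual_apply_eq_zero_iff F _).1 fun φ => ?_
  rw [map_sub, h, sub_self]

theorem Frame.PA_A (h : Frame B s A j) (a : A) : PA B A j a = a := ext_A fun φ => by rw [apply_PA, h.pair]

theorem Frame.PA_B (h : Frame B s A j) (ψ : Dual F A) : PA B A j (j ψ) = 0 :=
  ext_A fun φ => by rw [apply_PA, h.tiB, map_zero]

theorem Frame.PB_A (h : Frame B s A j) (a : A) : PB B s A a = 0 := by
  ext b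
  rw [PB_apply, h.tiA, mul_zero]
  rfl

theorem Frame.PB_B (h : Frame B s A j) (ψ : Dual F A) : PB B s A (j ψ) = ψ := by
  ext b
  rw [PB_apply, h.sym, ← mul_assoc, h.ss, one_mul, h.pair]

/-- the component in the orthogonal complement -/
noncomputable def PC (B : V →ₗ[F] V →ₗ[F] F) (s : F) (A : Submodule F V) (j : Dual F A →ₗ[F] V) : V →ₗ[F] V :=
  LinearMap.id - A.subtype ∘ₗ PA B A j - j ∘ₗ PB B s A

theorem PC_apply (v : V) : PC B s A j v = v - PA B A j v - j (PB B s A v) := rfl

theorem Frame.PA_C (h : Frame B s A j) (v : V) : PA B A j (PC B s A j v) = 0 := by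
  rw [PC_apply, map_sub, map_sub, h.PA_A, h.PA_B, sub_self, sub_zero]

theorem Frame.PB_C (h : Frame B s A j) (v : V) : PB B s A (PC B s A j v) = 0 := by
  rw [PC_apply, map_sub, map_sub, h.PB_A, h.PB_B, sub_zero, sub_self]

theorem Frame.C_A (h : Frame B s A j) (a : A) : PC B s A j a = 0 := by
  rw [PC_apply, h.PA_A, h.PB_A, sub_self, map_zero, sub_zero]

theorem Frame.C_B (h : Frame B s A j) (ψ : Dual F A) : PC B s A j (j ψ) = 0 := by
  rw [PC_apply, h.PA_B, h.PB_B, Submodule.coe_zero, sub_zero, sub_self]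

theorem Frame.C_C (h : Frame B s A j) (v : V) : PC B s A j (PC B s A j v) = PC B s A j v := by
  rw [PC_apply (v := PC B s A j v), h.PA_C, h.PB_C, Submodule.coe_zero, map_zero, sub_zero, sub_zero]

theorem Frame.B_BC (h : Frame B s A j) (φ : Dual F A) (v : V) : B (j φ) (PC B s A j v) = 0 := by
  rw [← apply_PA, h.PA_C, map_zero]

theorem Frame.B_AC (h : Frame B s A j) (a : A) (v : V) : B a (PC B s A j v) = 0 := by
  have h1 := congrArg (fun φ : Dual F A => φ a) (h.PB_C v)
  simp only [PB_apply] at h1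
  have h2 : s * (s * B a (PC B s A j v)) = 0 := by rw [h1]; simp
  rwa [← mul_assoc, h.ss, one_mul] at h2

theorem Frame.decomp (v : V) : v = (PA B A j v : V) + j (PB B s A v) + PC B s A j v := by
  rw [PC_apply]
  abel

/-- the isometry of the frame -/
noncomputable def RR (B : V →ₗ[F] V →ₗ[F] F) (s : F) (A : Submodule F V) (j : Dual F A →ₗ[F] V) (g : A ≃ₗ[F] A) :
    V →ₗ[F] V :=
  A.subtype ∘ₗ g.toLinearMap ∘ₗ PA B A j + j ∘ₗ g.symm.dualMap.toLinearMap ∘ₗ PB B s A + PC B s A j

theorem RR_apply (g : A ≃ₗ[F] A) (v : V) : RR B s A j g v =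
    (g (PA B A j v) : V) + j (g.symm.dualMap (PB B s A v)) + PC B s A j v := rfl

theorem Frame.PA_R (h : Frame B s A j) (g : A ≃ₗ[F] A) (v : V) : PA B A j (RR B s A j g v) = g (PA B A j v) := by
  rw [RR_apply, map_add, map_add, h.PA_A, h.PA_B, h.PA_C, add_zero, add_zero]

theorem Frame.PB_R (h : Frame B s A j) (g : A ≃ₗ[F] A) (v : V) :
    PB B s A (RR B s A j g v) = g.symm.dualMap (PB B s A v) := by
  rw [RR_apply, map_add, map_add, h.PB_A, h.PB_B, h.PB_C, zero_add, add_zero]

theorem Frame.PC_R (h : Frame B s A j) (g : A ≃ₗ[F] A) (v : V) : PC B s A j (RR B s A j g v) = PC B s A j v := by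
  rw [RR_apply, map_add, map_add, h.C_A, h.C_B, h.C_C, zero_add, zero_add]

theorem Frame.R_mul (h : Frame B s A j) (g g' : A ≃ₗ[F] A) (v : V) :
    RR B s A j g (RR B s A j g' v) = RR B s A j (g * g') v := by
  rw [RR_apply (g := g), h.PA_R, h.PB_R, h.PC_R, RR_apply]
  congr 1

theorem Frame.R_one (_ : Frame B s A j) (v : V) : RR B s A j 1 v = v := by
  rw [RR_apply]
  exact (Frame.decomp v).symm

/-- the isometry of the frame, as an equivalence -/
noncomputable def Frame.equiv (h : Frame B s A j) (g : A ≃ₗ[F] A) : V ≃ₗ[F] V :=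
  LinearEquiv.ofLinearMap (RR B s A j g) (RR B s A j g⁻¹)
    (LinearMap.ext fun v => by rw [LinearMap.comp_apply, h.R_mul, mul_inv_cancel, h.R_one]; rfl)
    (LinearMap.ext fun v => by rw [LinearMap.comp_apply, h.R_mul, inv_mul_cancel, h.R_one]; rfl)

theorem Frame.equiv_apply (h : Frame B s A j) (g : A ≃ₗ[F] A) (v : V) : h.equiv g v = RR B s A j g v := rfl

theorem Frame.equiv_pow (h : Frame B s A j) (g : A ≃ₗ[F] A) (n : ℕ) (v : V) :
    (h.equiv g ^ n) v = RR B s A j (g ^ n) v := by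
  induction n generalizing v with
  | zero => rw [pow_zero, pow_zero, h.R_one]; rfl
  | succ n ih => rw [pow_succ, LinearEquiv.mul_apply, ih, h.equiv_apply, h.R_mul, pow_succ]

theorem Frame.form (h : Frame B s A j) (a a' : A) (φ φ' : Dual F A) (v v' : V) :
    B (a' + j φ' + PC B s A j v') (a + j φ + PC B s A j v) =
      s * φ a' + φ' a + B (PC B s A j v') (PC B s A j v) := by
  have e1 : B (a' : V) (j φ) = s * φ a' := by rw [h.sym, h.pair]
  have e2 : B (PC B s A j v') (a : V) = 0 := by rw [h.sym, h.B_AC, mul_zero]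
  have e3 : B (PC B s A j v') (j φ) = 0 := by rw [h.sym, h.B_BC, mul_zero]
  simp only [map_add, LinearMap.add_apply]
  rw [h.tiA, e1, h.B_AC, h.pair, h.tiB, h.B_BC, e2, e3]
  ring

/-- the isometry preserves the form -/
theorem Frame.pres (h : Frame B s A j) (g : A ≃ₗ[F] A) (w v : V) :
    B (RR B s A j g w) (RR B s A j g v) = B w v := by
  conv_rhs => rw [Frame.decomp (B := B) (s := s) (A := A) (j := j) w, Frame.decomp (B := B) (s := s) (A := A) (j := j) v]
  rw [RR_apply, RR_apply, h.form, h.form]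
  have e1 : g.symm.dualMap (PB B s A v) (g (PA B A j w)) = PB B s A v (PA B A j w) := by
    rw [LinearEquiv.dualMap_apply, LinearEquiv.symm_apply_apply]
  have e2 : g.symm.dualMap (PB B s A w) (g (PA B A j v)) = PB B s A w (PA B A j v) := by
    rw [LinearEquiv.dualMap_apply, LinearEquiv.symm_apply_apply]
  rw [e1, e2]

/-- **the two spaces are not conjugate under the centralizer** -/
theorem Frame.no_map (h : Frame B s A j) {K : Type*} [Field K] [Algebra F K] [Finite K] {p : ℕ} (hp : p.Prime)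
    (hp2 : p ≠ 2) {ζ : K} (h1 : ζ ^ p = 1) (h2 : ζ ≠ 1) (ho : Odd (finrank F K)) (ι : K ≃ₗ[F] A) (g : A ≃ₗ[F] A)
    (hg : ∀ u, g (ι u) = ι (ζ * u)) (k : V ≃ₗ[F] V) (hk : ∀ v, k (RR B s A j g v) = RR B s A j g (k v))
    (hA : ∀ a : A, PA B A j (k a) = 0) : False := by
  have hz : ζ ≠ 0 := by
    rintro rfl
    rw [zero_pow hp.ne_zero] at h1
    exact zero_ne_one h1
  have hgA : ∀ a : A, RR B s A j g a = g a := fun a => by
    rw [RR_apply, h.PA_A, h.PB_A, h.C_A, map_zero, map_zero, add_zero, add_zero]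
  -- the component in the complement vanishes
  have hC : ∀ a : A, PC B s A j (k a) = 0 := by
    intro a
    obtain ⟨u, rfl⟩ := ι.surjective a
    have h3 : ι u = g (ι ((ζ - 1)⁻¹ * u)) - ι ((ζ - 1)⁻¹ * u) := by
      rw [hg, ← map_sub, ← sub_one_mul, mul_inv_cancel_left₀ (sub_ne_zero.2 h2)]
    rw [h3, Submodule.coe_sub, map_sub, map_sub, ← hgA, hk, h.PC_R, sub_self]
  -- the map `A → A*`
  let θ : K →ₗ[F] Dual F K :=
    ι.toLinearMap.dualMap ∘ₗ PB B s A ∘ₗ k.toLinearMap ∘ₗ A.subtype ∘ₗ ι.toLinearMap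
  have hθ : ∀ u v, θ u v = PB B s A (k (ι u)) (ι v) := fun _ _ => rfl
  have hk2 : ∀ a : A, k (a : V) = j (PB B s A (k a)) := fun a => by
    have h4 := Frame.decomp (B := B) (s := s) (A := A) (j := j) (k a)
    rw [hA, hC, Submodule.coe_zero, zero_add, add_zero] at h4
    exact h4
  have hfK : FiniteDimensional F K := LinearEquiv.finiteDimensional ι.symm
  have hinj : Function.Injective θ := by
    rw [injective_iff_map_eq_zero]
    intro u hu
    have h3 : PB B s A (k (ι u)) = 0 := by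
      ext b
      obtain ⟨v, rfl⟩ := ι.surjective b
      have h4 := congrArg (fun φ : Dual F K => φ v) hu
      simpa [hθ] using h4
    have h4 := hk2 (ι u)
    rw [h3, map_zero] at h4
    have h5 : (ι u : V) = 0 := by
      apply k.injective
      rw [h4, map_zero]
    have h6 : ι u = 0 := Subtype.ext h5
    rwa [map_eq_zero_iff ι ι.injective] at h6
  have hsurj : Function.Surjective θ := by
    have h3 : finrank F K = finrank F (Dual F K) := (Subspace.dual_finrank_eq).symm
    exact (LinearMap.injective_iff_surjective_of_finrank_eq_finrank h3).1 hinj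
  refine no_form hp hp2 h1 h2 ho θ (fun u v => ?_) hsurj
  rw [hθ, hθ, ← hg, ← hgA, hk, h.PB_R, LinearEquiv.dualMap_apply]
  congr 1
  rw [LinearEquiv.symm_apply_eq, hg, mul_inv_cancel_left₀ hz]

end geom

end Cfsg.Agent.H711.DPol
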